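import Cfsg.Agent.Lib.Helper80.LBM.Defs

set_option autoImplicit false

namespace Cfsg.Agent.Lib.Helper8.LBM

open Matrix QuadraticMap Cfsg.Agent.Lib.Helper80.LBM

/-- [D] GRAM: the Gram matrix of the polar form. -/
theorem exists_gram {F : Type*} [Field F] (h2 : (2 : F) ≠ 0) {ι : Type*} [Fintype ι]
    [DecidableEq ι] (Q : QuadraticForm F (ι → F)) (hQ : (polarBilin Q).Nondegenerate) :
    ∃ Γ : Matrix ι ι F, Γᵀ = Γ ∧ Γ.det ≠ 0 ∧ (∀ u v, polar Q u v = u ⬝ᵥ Γ *ᵥ v) ∧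
      ∀ (s : Matrix ι ι F) (c : F), (∀ v, Q (s *ᵥ v) = c * Q v) ↔ sᵀ * Γ * s = c • Γ := by
  set Γ : Matrix ι ι F := LinearMap.BilinForm.toMatrix' (polarBilin Q) with hΓ
  have hpolar : ∀ u v, polar Q u v = u ⬝ᵥ Γ *ᵥ v := by
    intro u v
    rw [hΓ, ← Matrix.toBilin'_apply', Matrix.toBilin'_toMatrix', polarBilin_apply_apply]
  have hconj : ∀ (s : Matrix ι ι F) (u v : ι → F),
      u ⬝ᵥ (sᵀ * Γ * s) *ᵥ v = (s *ᵥ u) ⬝ᵥ Γ *ᵥ (s *ᵥ v) := by
    intro s u v
    rw [← Matrix.mulVec_mulVec, ← Matrix.mulVec_mulVec, Matrix.dotProduct_mulVec u,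
      Matrix.vecMul_transpose]
  refine ⟨Γ, ?_, ?_, hpolar, ?_⟩
  · ext a b
    rw [Matrix.transpose_apply, hΓ, LinearMap.BilinForm.toMatrix'_apply,
      LinearMap.BilinForm.toMatrix'_apply, polarBilin_apply_apply, polarBilin_apply_apply,
      polar_comm]
  · rw [← Matrix.nondegenerate_iff_det_ne_zero, hΓ,
      LinearMap.BilinForm.nondegenerate_toMatrix'_iff]
    exact hQ
  · intro s c
    constructor
    · intro h
      ext a b
      have h1 : (Pi.single a 1 : ι → F) ⬝ᵥ (sᵀ * Γ * s) *ᵥ (Pi.single b 1)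
          = c * ((Pi.single a 1 : ι → F) ⬝ᵥ Γ *ᵥ (Pi.single b 1)) := by
        rw [hconj, ← hpolar, ← hpolar]
        unfold polar
        rw [← Matrix.mulVec_add, h, h, h]
        ring
      simpa using h1
    · intro h v
      have h1 : 2 * Q (s *ᵥ v) = 2 * (c * Q v) := by
        have e1 : polar Q (s *ᵥ v) (s *ᵥ v) = 2 * Q (s *ᵥ v) := by
          rw [polar_self]; simp
        have e2 : polar Q v v = 2 * Q v := by
          rw [polar_self]; simp
        rw [← e1, hpolar, ← hconj, h, Matrix.smul_mulVec, dotProduct_smul, ← hpolar, e2,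
          smul_eq_mul]
        ring
      exact mul_left_cancel₀ h2 h1

end Cfsg.Agent.Lib.Helper8.LBM
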