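import Mathlib
import Cfsg.Agent.Lib.Helper53.Hup.Defs

/-! Number theory lemmas for Huppert's theorem (piece NT of S3360). -/

set_option autoImplicit false

namespace Cfsg.Agent.Lib.Helper8.HupNT

open Cfsg.Agent.Lib.Helper53.Hup

theorem PPD.succ_le {p n s : ℕ} (hp : p.Prime) (hn : 0 < n) (h : PPD p n s) : n + 1 ≤ s := by
  obtain ⟨hs, hd, hk⟩ := h
  have hsp : ¬ s ∣ p := by
    intro hsp
    have h1 : s ∣ p ^ n := dvd_pow hsp hn.ne'
    have h2 : 1 ≤ p ^ n := Nat.one_le_pow _ _ hp.pos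
    have h3 : s ∣ 1 := by
      have := (Nat.dvd_sub_iff_right h2 h1).1 hd
      exact this
    exact hs.one_lt.ne' (Nat.dvd_one.1 h3)
  have hcop : Nat.Coprime p s := ((Nat.Prime.coprime_iff_not_dvd hs).2 hsp).symm
  have hf : p ^ (s - 1) ≡ 1 [MOD s] := by
    have := Nat.ModEq.pow_totient hcop
    rwa [Nat.totient_prime hs] at this
  have hf2 : s ∣ p ^ (s - 1) - 1 := (Nat.modEq_iff_dvd' (Nat.one_le_pow _ _ hp.pos)).1 hf.symm
  by_contra hlt
  push Not at hlt
  have h2 := hs.two_le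
  exact hk (s - 1) (by omega) (by omega) hf2

theorem nt_sq {s E n : ℕ} (hs : s.Prime) (hd : s ∣ E ^ 2 - 1) (hE : 2 ≤ E) (hEn : E ≤ n)
    (hns : n + 1 ≤ s) : E = n ∧ s = n + 1 := by
  have h1 : E ^ 2 - 1 = (E - 1) * (E + 1) := by
    obtain ⟨k, rfl⟩ : ∃ k, E = k + 1 := ⟨E - 1, by omega⟩
    have : (k + 1) ^ 2 = (k + 1 - 1) * (k + 1 + 1) + 1 := by
      simp only [Nat.add_sub_cancel]; ring
    omega
  rw [h1] at hd
  rcases (Nat.Prime.dvd_mul hs).1 hd with h | h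
  · have := Nat.le_of_dvd (by omega) h
    omega
  · have := Nat.le_of_dvd (by omega) h
    omega

theorem nt_final {p n e : ℕ} (hp : p.Prime) (hp2 : p ≠ 2) (hn : n = 2 ^ e) (hn3 : 3 ≤ n)
    (hall : ∀ t, PPD p n t → t = n + 1) (hsq : ¬ (n + 1) ^ 2 ∣ p ^ n - 1) : p = 3 ∧ n = 4 := by
  have hp3 : 3 ≤ p := by
    have := hp.two_le
    omega
  -- e ≥ 2
  obtain ⟨f, rfl⟩ : ∃ f, e = f + 2 := by
    refine ⟨e - 2, ?_⟩
    rcases e with _ | _ | e
    · simp at hn; omega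
    · simp at hn; omega
    · omega
  set m := 2 ^ (f + 1) with hm
  have hnm : n = 2 * m := by rw [hn, hm]; ring
  have hm2 : m = 2 * 2 ^ f := by rw [hm]; ring
  have hmpos : 2 ≤ m := by
    have : 1 ≤ 2 ^ f := Nat.one_le_pow _ _ (by norm_num)
    omega
  set u := p ^ m + 1 with hu
  have hpm1 : 1 ≤ p ^ m := Nat.one_le_pow _ _ hp.pos
  have hfac : p ^ n - 1 = (p ^ m - 1) * u := by
    have : p ^ n = (p ^ m) ^ 2 := by rw [hnm, ← pow_mul, mul_comm]
    rw [this, hu]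
    obtain ⟨k, hk⟩ : ∃ k, p ^ m = k + 1 := ⟨p ^ m - 1, by omega⟩
    rw [hk]
    have : (k + 1) ^ 2 = (k + 1 - 1) * (k + 1 + 1) + 1 := by
      simp only [Nat.add_sub_cancel]; ring
    omega
  have hudvd : u ∣ p ^ n - 1 := ⟨p ^ m - 1, by rw [hfac, mul_comm]⟩
  -- p odd, so p^m ≡ 1 mod 4
  have hpodd : p % 2 = 1 := by
    rcases hp.eq_two_or_odd with h | h
    · exact absurd h hp2
    · exact h
  have hmod4 : p ^ m % 4 = 1 := by
    have h1 : p ^ m = (p ^ 2) ^ (2 ^ f) := by rw [hm2, pow_mul]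
    have h2 : p ^ 2 % 4 = 1 := by
      have : p % 4 = 1 ∨ p % 4 = 3 := by omega
      rcases this with h | h <;> simp [pow_two, Nat.mul_mod, h]
    rw [h1, Nat.pow_mod, h2]
    simp
  have hu4 : u % 4 = 2 := by omega
  obtain ⟨w, hw⟩ : ∃ w, u = 2 * w := ⟨u / 2, by omega⟩
  have hwodd : w % 2 = 1 := by omega
  have hw0 : w ≠ 0 := by omega
  -- every prime divisor of w is a PPD
  have hprime : ∀ {d : ℕ}, d.Prime → d ∣ w → d = n + 1 := by
    intro d hd hdw
    apply hall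
    have hdu : d ∣ u := hw ▸ Dvd.dvd.mul_left hdw 2
    refine ⟨hd, hdu.trans hudvd, ?_⟩
    intro k hk0 hkn hdk
    have hd2 : d ≠ 2 := by
      rintro rfl
      have := Nat.mod_eq_zero_of_dvd hdw
      omega
    have hg : d ∣ p ^ Nat.gcd k n - 1 := by
      rw [← Nat.pow_sub_one_gcd_pow_sub_one]
      exact Nat.dvd_gcd hdk (hdu.trans hudvd)
    have hgn : Nat.gcd k n ∣ 2 ^ (f + 2) := hn ▸ Nat.gcd_dvd_right k n
    obtain ⟨j, hj, hgj⟩ := (Nat.dvd_prime_pow Nat.prime_two).1 hgn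
    have hgle : Nat.gcd k n ≤ k := Nat.gcd_le_left _ hk0
    have hj1 : j ≤ f + 1 := by
      by_contra hcon
      have : j = f + 2 := by omega
      rw [this, ← hn] at hgj
      omega
    have hgm : Nat.gcd k n ∣ m := by
      rw [hgj, hm]
      exact pow_dvd_pow 2 hj1
    obtain ⟨c, hc⟩ := hgm
    have h3 : p ^ Nat.gcd k n - 1 ∣ p ^ m - 1 := by
      have := Nat.sub_dvd_pow_sub_pow (p ^ Nat.gcd k n) 1 c
      rwa [one_pow, ← pow_mul, ← hc] at this
    have h4 : d ∣ p ^ m - 1 := hg.trans h3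
    have h5 : d ∣ 2 := by
      have : u = (p ^ m - 1) + 2 := by omega
      rw [this] at hdu
      exact (Nat.dvd_add_right h4).1 hdu
    exact hd2 ((Nat.prime_dvd_prime_iff_eq hd Nat.prime_two).1 h5)
  have hwpow := Nat.eq_prime_pow_of_unique_prime_dvd hw0 hprime
  set a := w.primeFactorsList.length with ha
  have ha2 : a < 2 := by
    by_contra hcon
    push Not at hcon
    apply hsq
    have h1 : (n + 1) ^ 2 ∣ w := by
      rw [hwpow]
      exact pow_dvd_pow _ hcon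
    exact (h1.trans (hw ▸ Dvd.intro_left 2 rfl)).trans hudvd
  have ha0 : a ≠ 0 := by
    intro h0
    rw [h0, pow_zero] at hwpow
    have h1 : p ^ m = 1 := by omega
    have h2 : p ^ 1 ≤ p ^ m := Nat.pow_le_pow_right hp.pos (by omega)
    rw [pow_one] at h2
    omega
  have ha1 : a = 1 := by omega
  rw [ha1, pow_one] at hwpow
  have hkey : p ^ m = 4 * m + 1 := by omega
  have h3m : 3 ^ m ≤ 4 * m + 1 := by
    rw [← hkey]
    exact Nat.pow_le_pow_left hp3 m
  have hgrow : ∀ k : ℕ, 3 ≤ k → 4 * k + 1 < 3 ^ k := by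
    intro k hk
    induction k, hk using Nat.le_induction with
    | base => norm_num
    | succ k hk ih => rw [pow_succ]; omega
  have hm_eq : m = 2 := by
    by_contra hne
    have := hgrow m (by omega)
    omega
  rw [hm_eq] at hkey
  have hp_eq : p = 3 := by
    have h9 : p ^ 2 = 3 ^ 2 := by rw [hkey]; norm_num
    exact Nat.pow_left_injective (n := 2) (by norm_num) h9
  exact ⟨hp_eq, by omega⟩

end Cfsg.Agent.Lib.Helper8.HupNT
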