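import Mathlib
import Cfsg.Agent.Lib.Helper14.DiscSplit

/-!
# Piece P1 of the S2686 farm: rigidity of the special orthogonal group over a subfield

We use Siegel (Eichler) transformations `x ↦ x + b(x,e) w - b(x,w) e - b(w,w)/2 b(x,e) e`
(`e` singular, `w ⟂ e`): they are unipotent, so the scalar `z` has to be `1`.
-/

set_option autoImplicit false

namespace Cfsg.Agent.Lib.Helper8.LBP

open Matrix

variable {n : ℕ}

section Siegel

variable {R : Type*} [Field R]

/-- the bilinear form `b(x,y) = (G x) · y`. -/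
def bf (G : Matrix (Fin n) (Fin n) R) (x y : Fin n → R) : R := (G *ᵥ x) ⬝ᵥ y

lemma bf_add_left (G : Matrix (Fin n) (Fin n) R) (x y z : Fin n → R) :
    bf G (x + y) z = bf G x z + bf G y z := by simp [bf, mulVec_add]

lemma bf_add_right (G : Matrix (Fin n) (Fin n) R) (x y z : Fin n → R) :
    bf G x (y + z) = bf G x y + bf G x z := by simp [bf]

lemma bf_sub_left (G : Matrix (Fin n) (Fin n) R) (x y z : Fin n → R) :
    bf G (x - y) z = bf G x z - bf G y z := by simp [bf, mulVec_sub]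

lemma bf_sub_right (G : Matrix (Fin n) (Fin n) R) (x y z : Fin n → R) :
    bf G x (y - z) = bf G x y - bf G x z := by simp [bf]

lemma bf_smul_left (G : Matrix (Fin n) (Fin n) R) (c : R) (x z : Fin n → R) :
    bf G (c • x) z = c * bf G x z := by simp [bf, mulVec_smul]

lemma bf_smul_right (G : Matrix (Fin n) (Fin n) R) (c : R) (x z : Fin n → R) :
    bf G x (c • z) = c * bf G x z := by simp [bf]

lemma bf_comm {G : Matrix (Fin n) (Fin n) R} (hG : Gᵀ = G) (x y : Fin n → R) :
    bf G x y = bf G y x := by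
  unfold bf
  rw [dotProduct_comm, dotProduct_mulVec, ← mulVec_transpose, hG]

/-- product of two transvection-like matrices -/
lemma two_mulVec {S : Type*} [CommRing S] (w p e r x : Fin n → S) (hpe : p ⬝ᵥ e = 0) :
    ((1 + vecMulVec w p) * (1 + vecMulVec e r)) *ᵥ x = x + (p ⬝ᵥ x) • w + (r ⬝ᵥ x) • e := by
  rw [← mulVec_mulVec]
  simp only [add_mulVec, one_mulVec, vecMulVec_mulVec, op_smul_eq_smul, mulVec_add, mulVec_smul,
    hpe]
  simp

lemma det_one_add_vmv {S : Type*} [CommRing S] (u v : Fin n → S) :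
    (1 + vecMulVec u v).det = 1 + v ⬝ᵥ u := by
  rw [vecMulVec_eq (ι := Unit), det_one_add_replicateCol_mul_replicateRow]

/-- the Siegel transformation. -/
def sieg (G : Matrix (Fin n) (Fin n) R) (e w : Fin n → R) : Matrix (Fin n) (Fin n) R :=
  (1 + vecMulVec w (G *ᵥ e)) * (1 + vecMulVec e (-(G *ᵥ w) - (bf G w w / 2) • (G *ᵥ e)))

lemma sieg_mulVec (G : Matrix (Fin n) (Fin n) R) {e : Fin n → R} (w : Fin n → R)
    (he : bf G e e = 0) (x : Fin n → R) :
    sieg G e w *ᵥ x = x + bf G e x • w - bf G w x • e - (bf G w w / 2 * bf G e x) • e := by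
  rw [sieg, two_mulVec _ _ _ _ _ he]
  simp only [sub_dotProduct, neg_dotProduct, smul_dotProduct, smul_eq_mul]
  unfold bf
  module

lemma det_sieg {G : Matrix (Fin n) (Fin n) R} {e w : Fin n → R}
    (he : bf G e e = 0) (hew : bf G e w = 0) (hwe : bf G w e = 0) : (sieg G e w).det = 1 := by
  rw [sieg, det_mul, det_one_add_vmv, det_one_add_vmv]
  have h1 : G *ᵥ e ⬝ᵥ w = 0 := hew
  have h2 : G *ᵥ e ⬝ᵥ e = 0 := he
  have h3 : G *ᵥ w ⬝ᵥ e = 0 := hwe
  simp [sub_dotProduct, h1, h2, h3]

lemma sieg_isom {G : Matrix (Fin n) (Fin n) R} (h2 : (2 : R) ≠ 0) (hG : Gᵀ = G) {e w : Fin n → R}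
    (he : bf G e e = 0) (hew : bf G e w = 0) : (sieg G e w)ᵀ * G * sieg G e w = G := by
  have hwe : bf G w e = 0 := by rw [bf_comm hG]; exact hew
  have key : ∀ x y, bf G (sieg G e w *ᵥ x) (sieg G e w *ᵥ y) = bf G x y := by
    intro x y
    rw [sieg_mulVec G w he, sieg_mulVec G w he]
    simp only [bf_add_left, bf_add_right, bf_sub_left, bf_sub_right, bf_smul_left, bf_smul_right,
      he, hew, hwe]
    rw [bf_comm hG x w, bf_comm hG x e]
    field_simp
    ring
  ext j k
  have := key (Pi.single k 1) (Pi.single j 1)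
  unfold bf at this
  rw [mulVec_mulVec, dotProduct_mulVec, ← mulVec_transpose, mulVec_mulVec] at this
  simp only [mulVec_single_one, dotProduct_single_one] at this
  simpa [Matrix.mul_assoc, col_apply] using this

end Siegel

section Abstract

variable {F0 F : Type*} [Field F0] [Field F] (i : F0 →+* F) (G : Matrix (Fin n) (Fin n) F0)

/-- base change of vectors -/
def hat (x : Fin n → F0) : Fin n → F := fun j => i (x j)

lemma hat_add (x y : Fin n → F0) : hat i (x + y) = hat i x + hat i y := by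
  ext j; simp [hat]

lemma hat_sub (x y : Fin n → F0) : hat i (x - y) = hat i x - hat i y := by
  ext j; simp [hat]

lemma hat_smul (c : F0) (x : Fin n → F0) : hat i (c • x) = i c • hat i x := by
  ext j; simp [hat]

lemma hat_eq_zero {x : Fin n → F0} : hat i x = 0 ↔ x = 0 := by
  constructor
  · intro h
    ext j
    have := congrFun h j
    simpa [hat] using this
  · rintro rfl
    ext j; simp [hat]

/-- the functional `b(u, ·)` after base change -/
def phi (u : Fin n → F0) (X : Fin n → F) : F := hat i (G *ᵥ u) ⬝ᵥ X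

lemma phi_add (u : Fin n → F0) (X Y : Fin n → F) : phi i G u (X + Y) = phi i G u X + phi i G u Y := by
  simp [phi]

lemma phi_sub (u : Fin n → F0) (X Y : Fin n → F) : phi i G u (X - Y) = phi i G u X - phi i G u Y := by
  simp [phi]

lemma phi_smul (u : Fin n → F0) (c : F) (X : Fin n → F) : phi i G u (c • X) = c * phi i G u X := by
  simp [phi]

lemma phi_hat (u x : Fin n → F0) : phi i G u (hat i x) = i (bf G u x) := by
  simp only [phi, bf, hat, dotProduct, map_sum, map_mul]

/-- the Siegel transformation after base change -/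
def Sg (e w : Fin n → F0) (X : Fin n → F) : Fin n → F :=
  X + phi i G e X • hat i w - phi i G w X • hat i e - (i (bf G w w / 2) * phi i G e X) • hat i e

lemma phi_Sg (u e w : Fin n → F0) (X : Fin n → F) :
    phi i G u (Sg i G e w X) = phi i G u X + phi i G e X * i (bf G u w) - phi i G w X * i (bf G u e)
      - i (bf G w w / 2) * phi i G e X * i (bf G u e) := by
  simp only [Sg, phi_add, phi_sub, phi_smul, phi_hat]

lemma sieg_map_mulVec {e : Fin n → F0} (w : Fin n → F0) (he : bf G e e = 0) (X : Fin n → F) :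
    ((sieg G e w).map i) *ᵥ X = Sg i G e w X := by
  have h1 : ∀ u v : Fin n → F0, (1 + vecMulVec u v).map i = 1 + vecMulVec (hat i u) (hat i v) := by
    intro u v
    ext j k
    simp [hat, vecMulVec_apply, Matrix.one_apply, apply_ite i]
  have h0 : hat i (G *ᵥ e) ⬝ᵥ hat i e = 0 := by
    have := phi_hat i G e e
    rw [he, map_zero] at this
    exact this
  rw [sieg, Matrix.map_mul, h1, h1, two_mulVec _ _ _ _ _ h0]
  have h3 : hat i (-(G *ᵥ w) - (bf G w w / 2) • (G *ᵥ e)) ⬝ᵥ X
      = - phi i G w X - i (bf G w w / 2) * phi i G e X := by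
    have : hat i (-(G *ᵥ w) - (bf G w w / 2) • (G *ᵥ e))
        = - hat i (G *ᵥ w) - i (bf G w w / 2) • hat i (G *ᵥ e) := by
      ext j; simp [hat]
    rw [this]
    simp [phi, sub_dotProduct]
  rw [h3]
  unfold Sg
  have h4 : hat i (G *ᵥ e) ⬝ᵥ X = phi i G e X := rfl
  rw [h4]
  module

variable {i G}
variable {τ : F ≃+* F} {T : (Fin n → F) → (Fin n → F)}

lemma T_sub' (hadd : ∀ X Y, T (X + Y) = T X + T Y) (hsmul : ∀ (c : F) X, T (c • X) = τ c • T X)
    (X Y : Fin n → F) : T (X - Y) = T X - T Y := by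
  have : X - Y = X + (-1 : F) • Y := by module
  rw [this, hadd, hsmul]
  simp [sub_eq_add_neg]

lemma comm_of (hG : Gᵀ = G)
    (hinj : ∀ X, T X = 0 → X = 0)
    (hS : ∀ e w, bf G e e = 0 → bf G e w = 0 →
      ∃ z : F, ∀ X, T (Sg i G e w X) = z • Sg i G e w (T X))
    {e w : Fin n → F0} (he : bf G e e = 0) (hew : bf G e w = 0) (hne : e ≠ 0) (X : Fin n → F) :
    T (Sg i G e w X) = Sg i G e w (T X) := by
  have hwe : bf G w e = 0 := by rw [bf_comm hG]; exact hew
  obtain ⟨z, hz⟩ := hS e w he hew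
  suffices hz1 : z = 1 by rw [hz, hz1, one_smul]
  have h1 : Sg i G e w (hat i e) = hat i e := by
    simp [Sg, phi_hat, he, hwe]
  have hY : T (hat i e) ≠ 0 := fun h => hne ((hat_eq_zero i).1 (hinj _ h))
  have h2 : T (hat i e) = z • Sg i G e w (T (hat i e)) := by
    have := hz (hat i e)
    rwa [h1] at this
  set Y := T (hat i e) with hYdef
  by_contra hz1
  have hz2 : 1 - z ≠ 0 := fun h => hz1 (by linear_combination -h)
  have h3 : phi i G e Y = 0 := by
    have := congrArg (phi i G e) h2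
    rw [phi_smul, phi_Sg, he, hew] at this
    simp only [map_zero, mul_zero, add_zero, sub_zero] at this
    have h4 : (1 - z) * phi i G e Y = 0 := by linear_combination this
    exact (mul_eq_zero.1 h4).resolve_left hz2
  have h5 : phi i G w Y = 0 := by
    have := congrArg (phi i G w) h2
    rw [phi_smul, phi_Sg, h3, hwe] at this
    simp only [map_zero, mul_zero, zero_mul, add_zero, sub_zero] at this
    have h4 : (1 - z) * phi i G w Y = 0 := by linear_combination this
    exact (mul_eq_zero.1 h4).resolve_left hz2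
  have h6 : Sg i G e w Y = Y := by simp [Sg, h3, h5]
  rw [h6] at h2
  have h7 : (1 - z) • Y = 0 := by linear_combination (norm := module) h2
  exact hY ((smul_eq_zero.1 h7).resolve_left hz2)

lemma line_of (hG : Gᵀ = G)
    (hadd : ∀ X Y, T (X + Y) = T X + T Y) (hsmul : ∀ (c : F) X, T (c • X) = τ c • T X)
    (hinj : ∀ X, T X = 0 → X = 0)
    (hS : ∀ e w, bf G e e = 0 → bf G e w = 0 →
      ∃ z : F, ∀ X, T (Sg i G e w X) = z • Sg i G e w (T X))
    {e w : Fin n → F0} (he : bf G e e = 0) (hew : bf G e w = 0) (hne : e ≠ 0)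
    (hw : bf G w w ≠ 0) : ∃ α : F, T (hat i e) = α • hat i e := by
  have hwe : bf G w e = 0 := by rw [bf_comm hG]; exact hew
  have C := comm_of hG hinj hS he hew hne
  have hia : i (bf G w w) ≠ 0 := (map_ne_zero i).2 hw
  have hτ : τ (i (bf G w w)) ≠ 0 := (map_ne_zero τ).2 hia
  have hê : hat i e ≠ 0 := fun h => hne ((hat_eq_zero i).1 h)
  have h1 : Sg i G e w (hat i e) = hat i e := by
    simp [Sg, phi_hat, he, hwe]
  have c1 := C (hat i e)
  rw [h1] at c1
  set Y := T (hat i e) with hYdef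
  have e1 : phi i G e Y = 0 := by
    have := congrArg (phi i G w) c1
    rw [phi_Sg, hwe] at this
    simp only [map_zero, mul_zero, sub_zero] at this
    have h4 : phi i G e Y * i (bf G w w) = 0 := by linear_combination -this
    exact (mul_eq_zero.1 h4).resolve_right hia
  have e2 : phi i G w Y = 0 := by
    unfold Sg at c1
    rw [e1] at c1
    have h4 : phi i G w Y • hat i e = 0 := by linear_combination (norm := module) c1
    exact (smul_eq_zero.1 h4).resolve_right hê
  have h2 : Sg i G e w (hat i w) = hat i w - i (bf G w w) • hat i e := by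
    simp [Sg, phi_hat, hew]
  have c2 := C (hat i w)
  rw [h2, T_sub' hadd hsmul, hsmul] at c2
  rw [← hYdef] at c2
  set Z := T (hat i w) with hZdef
  have e3 : phi i G e Z = 0 := by
    have := congrArg (phi i G w) c2
    rw [phi_sub, phi_smul, e2, phi_Sg, hwe] at this
    simp only [map_zero, mul_zero, sub_zero] at this
    have h4 : phi i G e Z * i (bf G w w) = 0 := by linear_combination -this
    exact (mul_eq_zero.1 h4).resolve_right hia
  refine ⟨(τ (i (bf G w w)))⁻¹ * phi i G w Z, ?_⟩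
  unfold Sg at c2
  rw [e3] at c2
  have h5 : τ (i (bf G w w)) • Y = phi i G w Z • hat i e := by
    linear_combination (norm := module) -c2
  rw [mul_smul, ← h5, smul_smul, inv_mul_cancel₀ hτ, one_smul]

lemma eig_of (hG : Gᵀ = G)
    (hadd : ∀ X Y, T (X + Y) = T X + T Y) (hsmul : ∀ (c : F) X, T (c • X) = τ c • T X)
    (hinj : ∀ X, T X = 0 → X = 0)
    (hS : ∀ e w, bf G e e = 0 → bf G e w = 0 →
      ∃ z : F, ∀ X, T (Sg i G e w X) = z • Sg i G e w (T X))
    {e f w : Fin n → F0} (he : bf G e e = 0) (hf : bf G f f = 0) (hef : bf G e f = 1)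
    (hew : bf G e w = 0) (hfw : bf G f w = 0) {αe αf : F} (hTe : T (hat i e) = αe • hat i e)
    (hTf : T (hat i f) = αf • hat i f) : T (hat i w) = αf • hat i w := by
  have hwe : bf G w e = 0 := by rw [bf_comm hG]; exact hew
  have hwf : bf G w f = 0 := by rw [bf_comm hG]; exact hfw
  have hfe : bf G f e = 1 := by rw [bf_comm hG]; exact hef
  have hne : e ≠ 0 := by
    rintro rfl
    simp [bf] at hef
  have hnf : f ≠ 0 := by
    rintro rfl
    simp [bf] at hef
  have c1 := comm_of hG hinj hS he hew hne (hat i f)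
  have c2 := comm_of hG hinj hS hf hfw hnf (hat i e)
  have s1 : Sg i G e w (hat i f) = hat i f + hat i w - i (bf G w w / 2) • hat i e := by
    simp [Sg, phi_hat, hef, hwf]
  have s2 : Sg i G f w (hat i e) = hat i e + hat i w - i (bf G w w / 2) • hat i f := by
    simp [Sg, phi_hat, hfe, hwe]
  rw [s1, T_sub' hadd hsmul, hadd, hsmul, hTe, hTf] at c1
  rw [s2, T_sub' hadd hsmul, hadd, hsmul, hTe, hTf] at c2
  simp only [Sg, phi_smul, phi_hat, hef, hfe, hwe, hwf, map_one, map_zero, mul_one, mul_zero] at c1 c2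
  set Q := i (bf G w w / 2) with hQ
  have d1 : T (hat i w) = αf • hat i w + (τ Q * αe - Q * αf) • hat i e := by
    linear_combination (norm := module) c1
  have d2 : T (hat i w) = αe • hat i w + (τ Q * αf - Q * αe) • hat i f := by
    linear_combination (norm := module) c2
  have k1 := congrArg (phi i G f) d1
  have k2 := congrArg (phi i G f) d2
  simp only [phi_add, phi_smul, phi_hat, hfw, hfe, hf, map_zero, map_one, mul_zero, mul_one,
    zero_add, add_zero] at k1 k2
  rw [d1, ← k1, k2]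
  simp

lemma final_of (hG : Gᵀ = G)
    (hadd : ∀ X Y, T (X + Y) = T X + T Y) (hsmul : ∀ (c : F) X, T (c • X) = τ c • T X)
    (hinj : ∀ X, T X = 0 → X = 0)
    (hS : ∀ e w, bf G e e = 0 → bf G e w = 0 →
      ∃ z : F, ∀ X, T (Sg i G e w X) = z • Sg i G e w (T X))
    {e f w : Fin n → F0} (he : bf G e e = 0) (hf : bf G f f = 0) (hef : bf G e f = 1)
    (hew : bf G e w = 0) (hfw : bf G f w = 0) (hw : bf G w w ≠ 0) :
    (∀ c : F0, τ (i c) = i c) ∧ ∃ α : F, ∀ x : Fin n → F0, T (hat i x) = α • hat i x := by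
  have hfe : bf G f e = 1 := by rw [bf_comm hG]; exact hef
  have hne : e ≠ 0 := by
    rintro rfl
    simp [bf] at hef
  have hnf : f ≠ 0 := by
    rintro rfl
    simp [bf] at hef
  have hnw : w ≠ 0 := by
    rintro rfl
    simp [bf] at hw
  have hŵ : hat i w ≠ 0 := fun h => hnw ((hat_eq_zero i).1 h)
  obtain ⟨αe, hTe⟩ := line_of hG hadd hsmul hinj hS he hew hne hw
  obtain ⟨αf, hTf⟩ := line_of hG hadd hsmul hinj hS hf hfw hnf hw
  have K1 : ∀ v, bf G e v = 0 → bf G f v = 0 → T (hat i v) = αf • hat i v := fun v h1 h2 =>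
    eig_of hG hadd hsmul hinj hS he hf hef h1 h2 hTe hTf
  have K2 : ∀ v, bf G e v = 0 → bf G f v = 0 → T (hat i v) = αe • hat i v := fun v h1 h2 =>
    eig_of hG hadd hsmul hinj hS hf he hfe h2 h1 hTf hTe
  have hα : αe = αf := by
    have h1 := K1 w hew hfw
    rw [K2 w hew hfw] at h1
    have h2 : (αe - αf) • hat i w = 0 := by linear_combination (norm := module) h1
    have := (smul_eq_zero.1 h2).resolve_right hŵ
    linear_combination this
  subst hα
  have hα0 : αe ≠ 0 := by
    rintro rfl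
    rw [zero_smul] at hTe
    exact hne ((hat_eq_zero i).1 (hinj _ hTe))
  have hτ : ∀ c : F0, τ (i c) = i c := by
    intro c
    have h1 := K1 (c • w) (by rw [bf_smul_right, hew, mul_zero]) (by rw [bf_smul_right, hfw, mul_zero])
    rw [hat_smul, hsmul, K1 w hew hfw] at h1
    have h2 : ((τ (i c) - i c) * αe) • hat i w = 0 := by linear_combination (norm := module) h1
    have h3 := (smul_eq_zero.1 h2).resolve_right hŵ
    have h4 := (mul_eq_zero.1 h3).resolve_right hα0
    linear_combination h4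
  refine ⟨hτ, αe, fun x => ?_⟩
  have hx : x = bf G f x • e + bf G e x • f + (x - bf G f x • e - bf G e x • f) := by module
  have h1 := K1 (x - bf G f x • e - bf G e x • f)
    (by simp only [bf_sub_right, bf_smul_right, he, hef]; ring)
    (by simp only [bf_sub_right, bf_smul_right, hf, hfe]; ring)
  conv_lhs => rw [hx]
  rw [hat_add, hat_add, hadd, hadd, h1, hat_smul, hat_smul, hsmul, hsmul, hτ, hτ, hTe, hTf]
  simp only [hat_sub, hat_smul]
  module

end Abstract

section Main

/-- a hyperbolic pair together with a nonsingular vector orthogonal to it. -/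
lemma exists_frame {F0 : Type*} [Field F0] [Fintype F0] (h2 : (2 : F0) ≠ 0) (hn : 3 ≤ n)
    (G : Matrix (Fin n) (Fin n) F0) (hG : Gᵀ = G) (hdet : G.det ≠ 0) :
    ∃ e f w : Fin n → F0, bf G e e = 0 ∧ bf G f f = 0 ∧ bf G e f = 1 ∧ bf G e w = 0 ∧
      bf G f w = 0 ∧ bf G w w ≠ 0 := by
  have hB : ∀ x y, Matrix.toBilin' G x y = bf G x y := by
    intro x y
    rw [Matrix.toBilin'_apply', bf_comm hG, bf, dotProduct_comm]
  obtain ⟨v, hv, hv'⟩ := Helper14.exists_orthogonal_basis' h2 (Matrix.toBilin' G)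
    (Matrix.isSymm_toBilin'_iff_isSymm.2 hG)
    (LinearMap.BilinForm.nondegenerate_toBilin'_of_det_ne_zero' G hdet)
  have hfr : Module.finrank F0 (Fin n → F0) = n := by simp
  let j1 : Fin (Module.finrank F0 (Fin n → F0)) := ⟨0, by omega⟩
  let j2 : Fin (Module.finrank F0 (Fin n → F0)) := ⟨1, by omega⟩
  let j3 : Fin (Module.finrank F0 (Fin n → F0)) := ⟨2, by omega⟩
  have h12 : j1 ≠ j2 := by simp [j1, j2, Fin.ext_iff]
  have h13 : j1 ≠ j3 := by simp [j1, j3, Fin.ext_iff]
  have h23 : j2 ≠ j3 := by simp [j2, j3, Fin.ext_iff]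
  simp only [hB] at hv hv'
  obtain ⟨u1, hu1⟩ : ∃ u, u = v j1 := ⟨_, rfl⟩
  obtain ⟨u2, hu2⟩ : ∃ u, u = v j2 := ⟨_, rfl⟩
  obtain ⟨u3, hu3⟩ : ∃ u, u = v j3 := ⟨_, rfl⟩
  obtain ⟨a1, ha1⟩ : ∃ a, a = bf G u1 u1 := ⟨_, rfl⟩
  obtain ⟨a2, ha2⟩ : ∃ a, a = bf G u2 u2 := ⟨_, rfl⟩
  obtain ⟨a3, ha3⟩ : ∃ a, a = bf G u3 u3 := ⟨_, rfl⟩
  have n1 : a1 ≠ 0 := by rw [ha1, hu1]; exact hv' j1
  have n2 : a2 ≠ 0 := by rw [ha2, hu2]; exact hv' j2
  have n3 : a3 ≠ 0 := by rw [ha3, hu3]; exact hv' j3
  have o12 : bf G u1 u2 = 0 := by rw [hu1, hu2]; exact hv _ _ h12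
  have o13 : bf G u1 u3 = 0 := by rw [hu1, hu3]; exact hv _ _ h13
  have o23 : bf G u2 u3 = 0 := by rw [hu2, hu3]; exact hv _ _ h23
  have o21 : bf G u2 u1 = 0 := by rw [hu1, hu2]; exact hv _ _ h12.symm
  have o31 : bf G u3 u1 = 0 := by rw [hu1, hu3]; exact hv _ _ h13.symm
  have o32 : bf G u3 u2 = 0 := by rw [hu2, hu3]; exact hv _ _ h23.symm
  obtain ⟨x, y, hxy⟩ := Helper14.exists_sq_sum_eq h2 a1 a2 (-a3) n1 n2
  refine ⟨x • u1 + y • u2 + u3, a3⁻¹ • u3 - (a3⁻¹ / 2) • (x • u1 + y • u2 + u3),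
    (a2 * y) • u1 - (a1 * x) • u2, ?_, ?_, ?_, ?_, ?_, ?_⟩
  all_goals
    simp only [bf_add_left, bf_add_right, bf_sub_left, bf_sub_right, bf_smul_left, bf_smul_right,
      o12, o13, o23, o21, o31, o32, ← ha1, ← ha2, ← ha3]
  · linear_combination hxy
  · field_simp
    linear_combination hxy
  · field_simp
    linear_combination (-1) * hxy
  · ring
  · field_simp
    ring
  · have : a2 * y * (a2 * y * a1 - a1 * x * 0) - a1 * x * (a2 * y * 0 - a1 * x * a2)
        = - (a1 * a2 * a3) := by linear_combination a1 * a2 * hxy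
    rw [this]
    exact neg_ne_zero.2 (mul_ne_zero (mul_ne_zero n1 n2) n3)

variable {F : Type*} [Field F]

/-- [P1] rigidity of the special orthogonal group over a subfield -/
theorem rigO {F0 : Type*} [Field F0] [Fintype F0] (i : F0 →+* F) (h2 : (2 : F0) ≠ 0) (hn : 3 ≤ n)
    (G : Matrix (Fin n) (Fin n) F0) (hG : Gᵀ = G) (hdet : G.det ≠ 0) (h : GL (Fin n) F)
    (τ : F ≃+* F)
    (H : ∀ s : SpecialLinearGroup (Fin n) F0, s.1ᵀ * G * s.1 = G →
      ∃ z : F, h.1 * (s.1.map i).map τ = z • ((s.1.map i) * h.1)) :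
    (∀ x : F0, τ (i x) = i x) ∧ ∃ c : F, h.1 = c • (1 : Matrix (Fin n) (Fin n) F) := by
  obtain ⟨e, f, w, he, hf, hef, hew, hfw, hw⟩ := exists_frame h2 hn G hG hdet
  let T : (Fin n → F) → (Fin n → F) := fun X => h.1 *ᵥ (fun j => τ (X j))
  have hadd : ∀ X Y, T (X + Y) = T X + T Y := by
    intro X Y
    show h.1 *ᵥ (fun j => τ ((X + Y) j)) = h.1 *ᵥ (fun j => τ (X j)) + h.1 *ᵥ (fun j => τ (Y j))
    rw [← mulVec_add]
    congr 1
    ext j
    simp
  have hsmul : ∀ (c : F) X, T (c • X) = τ c • T X := by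
    intro c X
    show h.1 *ᵥ (fun j => τ ((c • X) j)) = τ c • h.1 *ᵥ (fun j => τ (X j))
    rw [← mulVec_smul]
    congr 1
    ext j
    simp
  have hinj : ∀ X, T X = 0 → X = 0 := by
    intro X hX
    have h1 : (fun j => τ (X j)) = 0 := by
      have h3 : (h⁻¹).1 *ᵥ (h.1 *ᵥ (fun j => τ (X j))) = 0 := by
        have : h.1 *ᵥ (fun j => τ (X j)) = 0 := hX
        rw [this, mulVec_zero]
      rw [mulVec_mulVec] at h3
      have h4 : (h⁻¹).1 * h.1 = 1 := by
        have := inv_mul_cancel h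
        exact congrArg Units.val this
      rwa [h4, one_mulVec] at h3
    ext j
    have := congrFun h1 j
    simpa using this
  have hS : ∀ e w, bf G e e = 0 → bf G e w = 0 →
      ∃ z : F, ∀ X, T (Sg i G e w X) = z • Sg i G e w (T X) := by
    intro e w he hew
    have hwe : bf G w e = 0 := by rw [bf_comm hG]; exact hew
    obtain ⟨z, hz⟩ := H ⟨sieg G e w, det_sieg he hew hwe⟩ (sieg_isom h2 hG he hew)
    refine ⟨z, fun X => ?_⟩
    rw [← sieg_map_mulVec i G w he, ← sieg_map_mulVec i G w he]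
    show h.1 *ᵥ (fun j => τ ((((sieg G e w).map i) *ᵥ X) j)) =
      z • (((sieg G e w).map i) *ᵥ (h.1 *ᵥ (fun j => τ (X j))))
    have h1 : (fun j => τ ((((sieg G e w).map i) *ᵥ X) j)) =
        (((sieg G e w).map i).map τ) *ᵥ (fun j => τ (X j)) := by
      ext j
      exact RingHom.map_mulVec (τ : F →+* F) _ _ j
    rw [h1, mulVec_mulVec, mulVec_mulVec, ← smul_mulVec]
    exact congrArg (· *ᵥ (fun j => τ (X j))) hz
  obtain ⟨hτ, α, hα⟩ := final_of hG hadd hsmul hinj hS he hf hef hew hfw hw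
  refine ⟨hτ, α, ?_⟩
  ext j k
  have h1 := congrFun (hα (Pi.single k 1)) j
  have h3 : (fun l => τ (hat i (Pi.single k (1 : F0)) l)) = Pi.single k (1 : F) := by
    ext l
    by_cases hl : l = k
    · subst hl; simp [hat]
    · simp [hat, Pi.single_eq_of_ne hl]
  have h4 : hat i (Pi.single k (1 : F0)) = Pi.single k (1 : F) := by
    ext l
    by_cases hl : l = k
    · subst hl; simp [hat]
    · simp [hat, Pi.single_eq_of_ne hl]
  have h5 : T (hat i (Pi.single k (1 : F0))) = h.1 *ᵥ Pi.single k (1 : F) := by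
    show h.1 *ᵥ (fun l => τ (hat i (Pi.single k (1 : F0)) l)) = _
    rw [h3]
  rw [h5, h4, mulVec_single_one] at h1
  simp only [col_apply, Pi.smul_apply, smul_eq_mul] at h1
  rw [h1]
  simp [Matrix.one_apply, Pi.single_apply]

end Main

end Cfsg.Agent.Lib.Helper8.LBP
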