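import Cfsg.Agent.Lib.Helper80.LBM.Defs
import Cfsg.Agent.Lib.Helper44.Isotropy
import Cfsg.Agent.Lib.Helper44.Adjust

set_option autoImplicit false

namespace Cfsg.Agent.Lib.Helper8.LBM

open Matrix QuadraticMap Cfsg.Agent.Lib.Helper80.LBM

section

variable {E V V' : Type*} [Field E] [AddCommGroup V] [Module E V] [AddCommGroup V'] [Module E V']

theorem q_comb (q : QuadraticForm E V) {e f' w : V} (he : q e = 0) (hf' : q f' = 0)
    (hef : polar q e f' = 1) (hew : polar q e w = 0) (hfw : polar q f' w = 0) (X t : E) :
    q (X • e + t • w + f') = X + t * t * q w := by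
  have hwf : polar q w f' = 0 := by rw [polar_comm]; exact hfw
  rw [QuadraticMap.map_add q (X • e + t • w) f', QuadraticMap.map_add q (X • e) (t • w),
    QuadraticMap.map_smul, QuadraticMap.map_smul, polar_add_left, polar_smul_left, polar_smul_left,
    polar_smul_left, polar_smul_right, he, hf', hef, hew, hwf]
  simp only [smul_eq_mul]
  ring

theorem indep3 (h2 : (2 : E) ≠ 0) (q : QuadraticForm E V) {e f' w : V} (he : q e = 0)
    (hf' : q f' = 0) (hef : polar q e f' = 1) (hew : polar q e w = 0) (hfw : polar q f' w = 0)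
    (hw : q w ≠ 0) {A B C : E} (h : A • e + B • w + C • f' = 0) : A = 0 ∧ B = 0 ∧ C = 0 := by
  have hwf : polar q w f' = 0 := by rw [polar_comm]; exact hfw
  have hwe : polar q w e = 0 := by rw [polar_comm]; exact hew
  have hfe : polar q f' e = 1 := by rw [polar_comm]; exact hef
  have hA : A = 0 := by
    have := congrArg (fun z => polar q z f') h
    simpa only [polar_add_left, polar_smul_left, hef, hwf, polar_self, hf', smul_eq_mul, mul_one,
      mul_zero, add_zero, smul_zero, polar_zero_left] using this
  have hC : C = 0 := by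
    have := congrArg (fun z => polar q z e) h
    simpa only [polar_add_left, polar_smul_left, hfe, hwe, polar_self, he, smul_eq_mul, mul_one,
      mul_zero, add_zero, zero_add, smul_zero, polar_zero_left] using this
  have hB : B = 0 := by
    have := congrArg (fun z => polar q z w) h
    simp only [polar_add_left, polar_smul_left, hew, hfw, polar_self, smul_eq_mul,
      mul_zero, add_zero, zero_add, polar_zero_left] at this
    have h3 : B * (2 * q w) = 0 := by simpa using this
    exact (mul_eq_zero.1 h3).resolve_right (mul_ne_zero h2 hw)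
  exact ⟨hA, hB, hC⟩

/-- the main computation -/
theorem rig_step (h2 : (2 : E) ≠ 0) (q : QuadraticForm E V) (i : V →ₗ[E] V')
    (hi : Function.Injective i) (f : V →+ V') (hf : ∀ u, q u = 0 → ∃ c : E, f u = c • i u)
    {e f' w : V} (he : q e = 0) (hf' : q f' = 0) (hef : polar q e f' = 1) (hew : polar q e w = 0)
    (hfw : polar q f' w = 0) (hw : q w ≠ 0) {α : E} (hα : f f' = α • i f') {t : E} (ht : t ≠ 0) :
    f (t • w) = (α * t) • i w ∧ f ((-(q w) * t ^ 2) • e) = (α * (-(q w) * t ^ 2)) • i e := by
  set X : E := -(q w) * t ^ 2 with hX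
  have hX0 : X ≠ 0 := mul_ne_zero (neg_ne_zero.2 hw) (pow_ne_zero _ ht)
  obtain ⟨a, ha⟩ := hf (X • e + t • w + f') (by rw [q_comb q he hf' hef hew hfw, hX]; ring)
  obtain ⟨b, hb⟩ := hf (X • e + (-t) • w + f') (by rw [q_comb q he hf' hef hew hfw, hX]; ring)
  obtain ⟨p, hp⟩ := hf (X • e) (by rw [QuadraticMap.map_smul, he, smul_zero])
  have hneg : f ((-t) • w) = - f (t • w) := by rw [neg_smul, map_neg]
  simp only [map_add, map_smul, hneg, hα] at ha hb hp
  have hz : i (((a + b) * X - 2 * p * X) • e + ((a - b) * t) • w + (a + b - 2 * α) • f') = 0 := by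
    simp only [map_add, map_smul]
    rw [hp] at ha hb
    linear_combination (norm := module) -ha - hb
  have hz0 := hi (hz.trans (map_zero i).symm)
  obtain ⟨hA, hB, hC⟩ := indep3 h2 q he hf' hef hew hfw hw hz0
  have hab : a = b := sub_eq_zero.1 ((mul_eq_zero.1 hB).resolve_right ht)
  have haα : a = α := by
    rw [← hab] at hC
    have : 2 * (a - α) = 0 := by linear_combination hC
    exact sub_eq_zero.1 ((mul_eq_zero.1 this).resolve_left h2)
  have hpα : p = α := by
    rw [← hab, haα] at hA
    have : 2 * X * (α - p) = 0 := by linear_combination hA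
    exact (sub_eq_zero.1 ((mul_eq_zero.1 this).resolve_left (mul_ne_zero h2 hX0))).symm
  constructor
  · rw [hp, haα, hpα] at ha
    linear_combination (norm := module) ha
  · rw [hp, hpα, smul_smul]

end

/-- [A] RIG: an additive map sending every singular vector to a multiple of itself is a scalar. -/
theorem rig_add {E V V' : Type*} [Field E] [Fintype E] [AddCommGroup V] [Module E V]
    [FiniteDimensional E V] [AddCommGroup V'] [Module E V'] (h2 : (2 : E) ≠ 0)
    (q : QuadraticForm E V) (hq : (polarBilin q).Nondegenerate) (hd : 3 ≤ Module.finrank E V)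
    (i : V →ₗ[E] V') (hi : Function.Injective i) (f : V →+ V')
    (hf : ∀ u, q u = 0 → ∃ c : E, f u = c • i u) : ∃ α : E, ∀ w, f w = α • i w := by
  classical
  obtain ⟨e, -, he0, he⟩ := Cfsg.Agent.Lib.Helper44.exists_singular_of_finrank q ⊤
    (by rw [finrank_top]; exact hd)
  obtain ⟨f', hf', hef⟩ := Cfsg.Agent.Lib.Helper44.exists_hyp_partner hq he0 he
  have hfe : polar q f' e = 1 := by rw [polar_comm]; exact hef
  have hee : polar q e e = 0 := by rw [polar_self, he, smul_zero]
  have hff : polar q f' f' = 0 := by rw [polar_self, hf', smul_zero]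
  obtain ⟨α, hα⟩ := hf f' hf'
  -- decomposition
  have hdec : ∀ v, ∃ (w : V) (a b : E), v = w + a • e + b • f' ∧ polar q e w = 0 ∧
      polar q f' w = 0 := by
    intro v
    refine ⟨v - polar q v f' • e - polar q v e • f', polar q v f', polar q v e, by abel, ?_, ?_⟩
    · rw [polar_sub_right, polar_sub_right, polar_smul_right, polar_smul_right, hee, hef,
        polar_comm q e v]
      simp
    · rw [polar_sub_right, polar_sub_right, polar_smul_right, polar_smul_right, hfe, hff,
        polar_comm q f' v]
      simp
  -- a non-singular vector orthogonal to `e` and `f'`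
  obtain ⟨w0, hew0, hfw0, hw0⟩ : ∃ w0, polar q e w0 = 0 ∧ polar q f' w0 = 0 ∧ q w0 ≠ 0 := by
    by_contra hcon
    push Not at hcon
    have hperp0 : ∀ w, polar q e w = 0 → polar q f' w = 0 → w = 0 := by
      intro w h1 h1'
      apply hq.1 w
      intro v'
      obtain ⟨w', a, b, rfl, h3, h4⟩ := hdec v'
      rw [polarBilin_apply_apply, polar_add_right, polar_add_right, polar_smul_right,
        polar_smul_right, polar_comm q w e, polar_comm q w f', h1, h1']
      have h5 : polar q w w' = 0 := by
        unfold polar
        rw [hcon w h1 h1', hcon w' h3 h4, hcon (w + w') (by rw [polar_add_right, h1, h3, add_zero])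
          (by rw [polar_add_right, h1', h4, add_zero])]
        simp
      rw [h5]
      simp
    have htop : (⊤ : Submodule E V) ≤ Submodule.span E (({e, f'} : Finset V) : Set V) := by
      intro v _
      obtain ⟨w, a, b, rfl, h3, h4⟩ := hdec v
      rw [hperp0 w h3 h4, zero_add]
      apply Submodule.add_mem
      · exact Submodule.smul_mem _ _ (Submodule.subset_span (by simp))
      · exact Submodule.smul_mem _ _ (Submodule.subset_span (by simp))
    have h5 := Submodule.finrank_mono htop
    rw [finrank_top] at h5
    have h6 : Module.finrank E (Submodule.span E (({e, f'} : Finset V) : Set V)) ≤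
        ({e, f'} : Finset V).card := finrank_span_finset_le_card (R := E) ({e, f'} : Finset V)
    have h7 : ({e, f'} : Finset V).card ≤ 2 := Finset.card_le_two
    omega
  have hsum : ∀ (e₁ f₁ : V), q e₁ = 0 → q f₁ = 0 → polar q e₁ f₁ = 1 → polar q e₁ w0 = 0 →
      polar q f₁ w0 = 0 → f f₁ = α • i f₁ → ∀ x, f (x • e₁) = (α * x) • i e₁ := by
    intro e₁ f₁ h1 h3 h4 h5 h6 h7 x
    obtain ⟨t1, t2, ht⟩ := Cfsg.Agent.Lib.Helper44.exists_sq_add_sq h2 (a := -(q w0)) (b := -(q w0))
      (neg_ne_zero.2 hw0) (neg_ne_zero.2 hw0) x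
    have key : ∀ t, f ((-(q w0) * t ^ 2) • e₁) = (α * (-(q w0) * t ^ 2)) • i e₁ := by
      intro t
      by_cases ht0 : t = 0
      · subst ht0
        simp
      · exact (rig_step h2 q i hi f hf h1 h3 h4 h5 h6 hw0 h7 ht0).2
    rw [← ht, add_smul, map_add, key, key, ← add_smul]
    congr 1
    ring
  have hE := hsum e f' he hf' hef hew0 hfw0 hα
  have hαe : f e = α • i e := by simpa using hE 1
  have hF := hsum f' e hf' he hfe hfw0 hew0 hαe
  have hW : ∀ w, polar q e w = 0 → polar q f' w = 0 → q w ≠ 0 → ∀ t, f (t • w) = (α * t) • i w := by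
    intro w h1 h1' h3 t
    by_cases ht0 : t = 0
    · subst ht0
      simp
    · exact (rig_step h2 q i hi f hf he hf' hef h1 h1' h3 hα ht0).1
  have hW' : ∀ w, polar q e w = 0 → polar q f' w = 0 → f w = α • i w := by
    intro w h1 h1'
    by_cases h3 : q w = 0
    · obtain ⟨s, hs⟩ : ∃ s : E, q (w + s • w0) ≠ 0 := by
        have hq' : ∀ s, q (w + s • w0) = s * (s * q w0 + polar q w w0) := by
          intro s
          rw [QuadraticMap.map_add q w (s • w0), QuadraticMap.map_smul, polar_smul_right, h3]
          simp only [smul_eq_mul]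
          ring
        by_cases hP : polar q w w0 = 0
        · exact ⟨1, by rw [hq', hP]; simpa using hw0⟩
        · refine ⟨polar q w w0 / q w0, ?_⟩
          rw [hq']
          have : polar q w w0 / q w0 * q w0 + polar q w w0 = 2 * polar q w w0 := by
            field_simp
            ring
          rw [this]
          exact mul_ne_zero (div_ne_zero hP hw0) (mul_ne_zero h2 hP)
      have e1 := hW (w + s • w0) (by rw [polar_add_right, polar_smul_right, h1, hew0]; simp)
        (by rw [polar_add_right, polar_smul_right, h1', hfw0]; simp) hs 1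
      have e2 := hW w0 hew0 hfw0 hw0 s
      rw [one_smul, map_add, e2, map_add, map_smul] at e1
      linear_combination (norm := module) e1
    · have := hW w h1 h1' h3 1
      simpa using this
  refine ⟨α, fun v => ?_⟩
  obtain ⟨w, a, b, rfl, h3, h4⟩ := hdec v
  rw [map_add, map_add, hW' w h3 h4, hE, hF, map_add, map_add, map_smul, map_smul]
  module

end Cfsg.Agent.Lib.Helper8.LBM
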