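import Cfsg.Agent.Lib.Helper80.LBM.Defs

set_option autoImplicit false

namespace Cfsg.Agent.Lib.Helper8.LBM

open Matrix QuadraticMap Cfsg.Agent.Lib.Helper80.LBM

theorem fb_single_inl {F : Type*} [Field F] {d₁ d₂ : ℕ} (k : Fin d₁) :
    (fromBlocks 1 0 0 (-1) : Matrix (Fin d₁ ⊕ Fin d₂) (Fin d₁ ⊕ Fin d₂) F) *ᵥ
      Pi.single (Sum.inl k) 1 = Pi.single (Sum.inl k) 1 := by
  ext j
  rw [Matrix.mulVec_single_one]
  rcases j with j | j
  · simp [Matrix.one_apply, Pi.single_apply]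
  · simp

theorem fb_single_inr {F : Type*} [Field F] {d₁ d₂ : ℕ} (k : Fin d₂) :
    (fromBlocks 1 0 0 (-1) : Matrix (Fin d₁ ⊕ Fin d₂) (Fin d₁ ⊕ Fin d₂) F) *ᵥ
      Pi.single (Sum.inr k) 1 = - Pi.single (Sum.inr k) 1 := by
  ext j
  rw [Matrix.mulVec_single_one]
  rcases j with j | j
  · simp
  · simp [Matrix.one_apply, Pi.single_apply]

/-- [E] I-STR: an isometry of order two is `diag(1, -1)` in a basis adapted to an orthogonal
decomposition. -/
theorem exists_eigen_blocks {F : Type*} [Field F] (h2 : (2 : F) ≠ 0) {ι : Type*} [Fintype ι]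
    [DecidableEq ι] (Γ : Matrix ι ι F) (g : Matrix ι ι F)
    (hg : gᵀ * Γ * g = Γ) (hgg : g * g = 1) :
    ∃ (d₁ d₂ : ℕ) (P : Matrix ι (Fin d₁ ⊕ Fin d₂) F) (P' : Matrix (Fin d₁ ⊕ Fin d₂) ι F)
      (G₁ : Matrix (Fin d₁) (Fin d₁) F) (G₂ : Matrix (Fin d₂) (Fin d₂) F),
      P * P' = 1 ∧ P' * P = 1 ∧ P' * g * P = fromBlocks 1 0 0 (-1) ∧
        Pᵀ * Γ * P = fromBlocks G₁ 0 0 G₂ := by
  classical
  set Vp : Submodule F (ι → F) := LinearMap.ker (g.mulVecLin - LinearMap.id) with hVp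
  set Vm : Submodule F (ι → F) := LinearMap.ker (g.mulVecLin + LinearMap.id) with hVm
  have memp : ∀ v, v ∈ Vp ↔ g *ᵥ v = v := by
    intro v
    simp [hVp, LinearMap.mem_ker, sub_eq_zero]
  have memm : ∀ v, v ∈ Vm ↔ g *ᵥ v = -v := by
    intro v
    simp [hVm, LinearMap.mem_ker, add_eq_zero_iff_eq_neg]
  have hggv : ∀ v, g *ᵥ (g *ᵥ v) = v := by
    intro v
    rw [Matrix.mulVec_mulVec, hgg, Matrix.one_mulVec]
  have hcompl : IsCompl Vp Vm := by
    constructor
    · rw [Submodule.disjoint_def]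
      intro v hp hm
      rw [memp] at hp
      rw [memm] at hm
      have h : (2 : F) • v = 0 := by
        rw [two_smul]
        nth_rewrite 1 [← hp]
        rw [hm, neg_add_cancel]
      exact (smul_eq_zero.1 h).resolve_left h2
    · rw [codisjoint_iff, eq_top_iff]
      intro v _
      have e : v = (2 : F)⁻¹ • (v + g *ᵥ v) + (2 : F)⁻¹ • (v - g *ᵥ v) := by
        rw [← smul_add, add_add_sub_cancel, ← two_smul F v, smul_smul, inv_mul_cancel₀ h2, one_smul]
      rw [e]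
      apply Submodule.add_mem_sup
      · apply Submodule.smul_mem
        rw [memp, Matrix.mulVec_add, hggv, add_comm]
      · apply Submodule.smul_mem
        rw [memm, Matrix.mulVec_sub, hggv, neg_sub]
  let bp := Module.finBasis F Vp
  let bm := Module.finBasis F Vm
  let b : Module.Basis (Fin (Module.finrank F Vp) ⊕ Fin (Module.finrank F Vm)) F (ι → F) :=
    (bp.prod bm).map (Submodule.prodEquivOfIsCompl Vp Vm hcompl)
  have hbl : ∀ k, b (Sum.inl k) = (bp k : ι → F) := by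
    intro k
    simp [b]
  have hbr : ∀ k, b (Sum.inr k) = (bm k : ι → F) := by
    intro k
    simp [b]
  have hgl : ∀ k, g *ᵥ b (Sum.inl k) = b (Sum.inl k) := by
    intro k
    rw [hbl]; exact (memp _).1 (bp k).2
  have hgr : ∀ k, g *ᵥ b (Sum.inr k) = - b (Sum.inr k) := by
    intro k
    rw [hbr]; exact (memm _).1 (bm k).2
  set P : Matrix ι (Fin (Module.finrank F Vp) ⊕ Fin (Module.finrank F Vm)) F :=
    (Pi.basisFun F ι).toMatrix b with hP
  set P' : Matrix (Fin (Module.finrank F Vp) ⊕ Fin (Module.finrank F Vm)) ι F :=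
    b.toMatrix (Pi.basisFun F ι) with hP'
  have hPP' : P * P' = 1 := Module.Basis.toMatrix_mul_toMatrix_flip _ _
  have hP'P : P' * P = 1 := Module.Basis.toMatrix_mul_toMatrix_flip _ _
  have hcol : ∀ k, P *ᵥ Pi.single k 1 = b k := by
    intro k
    ext i
    simp [hP, Module.Basis.toMatrix_apply]
  set D : Matrix (Fin (Module.finrank F Vp) ⊕ Fin (Module.finrank F Vm))
      (Fin (Module.finrank F Vp) ⊕ Fin (Module.finrank F Vm)) F := fromBlocks 1 0 0 (-1) with hD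
  have hgP : g * P = P * D := by
    apply Matrix.ext_of_mulVec_single
    intro k
    rw [← Matrix.mulVec_mulVec, ← Matrix.mulVec_mulVec, hcol]
    rcases k with k | k
    · rw [hgl]
      have : D *ᵥ Pi.single (Sum.inl k) 1 = Pi.single (Sum.inl k) 1 := fb_single_inl k
      rw [this, hcol]
    · rw [hgr]
      have : D *ᵥ Pi.single (Sum.inr k) 1 = - Pi.single (Sum.inr k) 1 := fb_single_inr k
      rw [this, Matrix.mulVec_neg, hcol]
  have hent : ∀ k l, (Pᵀ * Γ * P) k l = b k ⬝ᵥ Γ *ᵥ b l := by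
    intro k l
    have h0 : (Pᵀ * Γ * P) k l = Pi.single k 1 ⬝ᵥ ((Pᵀ * Γ * P) *ᵥ Pi.single l 1) := by simp
    rw [h0, ← Matrix.mulVec_mulVec, ← Matrix.mulVec_mulVec,
      Matrix.dotProduct_mulVec (Pi.single k 1), Matrix.vecMul_transpose, hcol, hcol]
  have hinv : ∀ u v : ι → F, (g *ᵥ u) ⬝ᵥ Γ *ᵥ (g *ᵥ v) = u ⬝ᵥ Γ *ᵥ v := by
    intro u v
    conv_rhs => rw [← hg]
    rw [← Matrix.mulVec_mulVec, ← Matrix.mulVec_mulVec, Matrix.dotProduct_mulVec u,
      Matrix.vecMul_transpose]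
  have hzero : ∀ x : F, x = -x → x = 0 := by
    intro x hx
    have : (2 : F) * x = 0 := by linear_combination hx
    exact (mul_eq_zero.1 this).resolve_left h2
  refine ⟨_, _, P, P', (Pᵀ * Γ * P).toBlocks₁₁, (Pᵀ * Γ * P).toBlocks₂₂, hPP', hP'P, ?_, ?_⟩
  · rw [Matrix.mul_assoc, hgP, ← Matrix.mul_assoc, hP'P, Matrix.one_mul]
  · conv_lhs => rw [← Matrix.fromBlocks_toBlocks (Pᵀ * Γ * P)]
    congr 1
    · ext k l
      rw [Matrix.toBlocks₁₂, Matrix.of_apply, hent, Matrix.zero_apply]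
      apply hzero
      conv_lhs => rw [← hinv, hgl, hgr]
      rw [Matrix.mulVec_neg, dotProduct_neg]
    · ext k l
      rw [Matrix.toBlocks₂₁, Matrix.of_apply, hent, Matrix.zero_apply]
      apply hzero
      conv_lhs => rw [← hinv, hgl, hgr]
      rw [neg_dotProduct]

end Cfsg.Agent.Lib.Helper8.LBM
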