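import Cfsg.Agent.Lib.Helper80.LBM.Defs

set_option autoImplicit false

namespace Cfsg.Agent.Lib.Helper8.LBM

open Matrix QuadraticMap Polynomial Cfsg.Agent.Lib.Helper80.LBM

/-- [C] SKEW: a skew-adjoint similarity with scalar square has determinant `μ ^ n`. -/
theorem det_of_skew {F : Type*} [Field F] (h2 : (2 : F) ≠ 0) {ι : Type*} [Fintype ι]
    [DecidableEq ι] (Γ g : Matrix ι ι F) (hΓ : Γ.det ≠ 0) (μ : F) (hμ : μ ≠ 0) (n : ℕ)
    (hcard : Fintype.card ι = 2 * n) (hg : gᵀ * Γ * g = μ • Γ)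
    (hgg : g * g = (-μ) • (1 : Matrix ι ι F)) : g.det = μ ^ n := by
  -- `gᵀ Γ = - Γ g`
  have h1 : gᵀ * Γ = Γ * (-g) := by
    have e : gᵀ * Γ * g * g = μ • (Γ * g) := by rw [hg, Matrix.smul_mul]
    rw [Matrix.mul_assoc, hgg, Matrix.mul_smul, Matrix.mul_one] at e
    have e2 : μ • (gᵀ * Γ) = μ • (Γ * (-g)) := by
      rw [Matrix.mul_neg, smul_neg, ← e, neg_smul, neg_neg]
    exact smul_right_injective _ hμ e2
  let U : (Matrix ι ι F)ˣ := (Matrix.isUnit_iff_isUnit_det Γ).2 (isUnit_iff_ne_zero.2 hΓ) |>.unit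
  have hU : U.val = Γ := rfl
  have h3 : gᵀ = U.val * (-g) * U.val⁻¹ := by
    rw [hU, ← h1, Matrix.mul_assoc, Matrix.mul_nonsing_inv _ (isUnit_iff_ne_zero.2 hΓ),
      Matrix.mul_one]
  have hch : (-g).charpoly = g.charpoly := by
    rw [← Matrix.charpoly_transpose g, h3, Matrix.charpoly_units_conj]
  -- the product of the two characteristic matrices
  have hprod : charmatrix g * charmatrix (-g) = Matrix.scalar ι (X ^ 2 + C μ : F[X]) := by
    unfold charmatrix
    rw [map_neg, sub_neg_eq_add]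
    have hc : Commute (Matrix.scalar ι (X : F[X])) ((C : F →+* F[X]).mapMatrix g) :=
      Matrix.scalar_commute _ (fun r => Commute.all _ _) _
    have e1 : (Matrix.scalar ι (X : F[X]) - (C : F →+* F[X]).mapMatrix g) *
        (Matrix.scalar ι (X : F[X]) + (C : F →+* F[X]).mapMatrix g)
        = Matrix.scalar ι (X : F[X]) * Matrix.scalar ι (X : F[X])
          - (C : F →+* F[X]).mapMatrix g * (C : F →+* F[X]).mapMatrix g := by
      rw [sub_mul, mul_add, mul_add, hc.eq]
      abel
    rw [e1, ← map_mul, ← map_mul, hgg]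
    ext i j
    by_cases hij : i = j
    · subst hij
      simp [pow_two]
    · simp [hij]
  have hPP : g.charpoly * g.charpoly = ((X ^ 2 + C μ : F[X]) ^ n) * ((X ^ 2 + C μ : F[X]) ^ n) := by
    have e0 : g.charpoly * g.charpoly = g.charpoly * (-g).charpoly := by rw [hch]
    rw [e0]
    unfold Matrix.charpoly
    rw [← Matrix.det_mul, hprod, Matrix.scalar_apply, Matrix.det_diagonal, Finset.prod_const,
      Finset.card_univ, hcard, two_mul, pow_add]
  have hR : ((X ^ 2 + C μ : F[X]) ^ n).Monic := by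
    apply Monic.pow
    exact monic_X_pow_add_C μ (by norm_num)
  have hP := Matrix.charpoly_monic g
  have hfac : (g.charpoly - (X ^ 2 + C μ : F[X]) ^ n) * (g.charpoly + (X ^ 2 + C μ : F[X]) ^ n) = 0 := by
    linear_combination hPP
  have hPR : g.charpoly = (X ^ 2 + C μ : F[X]) ^ n := by
    rcases mul_eq_zero.1 hfac with h | h
    · exact sub_eq_zero.1 h
    · exfalso
      have e : g.charpoly = -((X ^ 2 + C μ : F[X]) ^ n) := eq_neg_of_add_eq_zero_left h
      have e2 := congrArg Polynomial.leadingCoeff e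
      rw [leadingCoeff_neg, hP.leadingCoeff, hR.leadingCoeff] at e2
      apply h2
      linear_combination e2
  rw [Matrix.det_eq_sign_charpoly_coeff, hPR, hcard, pow_mul, neg_one_sq, one_pow, one_mul,
    coeff_zero_eq_eval_zero]
  simp

end Cfsg.Agent.Lib.Helper8.LBM
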